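import Cfsg.Agent.OddChar.Twist
import Cfsg.Agent.LinearBound.PRational
import Cfsg.Agent.LinearBound.CanonicalInduced
import Cfsg.Agent.BlkChar.GalAvg
import Cfsg.Agent.CharExt.Extension

/-!
# `p`-rational characters: invariance under Galois powers, determinants, fields of values
-/

set_option autoImplicit false
set_option linter.style.haveILetI false

open Cfsg

namespace Cfsg.Agent.PRatExt

universe u

variable {G : Type u} [Group G] [Finite G] {p : ℕ}

/-- A `p`-rational character is fixed by all powers `k` prime to `p` which are `1` modulo the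
`p'`-part of the group order. -/
theorem pow_eq_of_rational (hp : p.Prime) {χ : G → ℂ} (hχ : IsCharacter G χ) {r : ℕ}
    (hpr : ¬ p ∣ r) (hval : ∀ g : G, χ g ∈
      IntermediateField.adjoin ℚ ({Complex.exp (2 * Real.pi * Complex.I / r)} : Set ℂ))
    {v m k : ℕ} (hG : Nat.card G ∣ p ^ v * m) (hpm : ¬ p ∣ m) (hk : k.Coprime (p ^ v))
    (hk1 : k ≡ 1 [MOD m]) (g : G) : χ (g ^ k) = χ g := by
  have hr : 0 < r := Nat.pos_of_ne_zero (by rintro rfl; exact hpr (dvd_zero p))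
  have hm : 0 < m := Nat.pos_of_ne_zero (by rintro rfl; exact hpm (dvd_zero p))
  set ω := Complex.exp (2 * Real.pi * Complex.I / r) with hω
  have hωr : IsPrimitiveRoot ω r := Complex.isPrimitiveRoot_exp r hr.ne'
  have hN : 0 < r * m * p ^ v := Nat.mul_pos (Nat.mul_pos hr hm) (pow_pos hp.pos v)
  haveI : NeZero (r * m * p ^ v) := ⟨hN.ne'⟩
  set ζ := Complex.exp (2 * Real.pi * Complex.I / (r * m * p ^ v : ℕ)) with hζdef
  have hζ : IsPrimitiveRoot ζ (r * m * p ^ v) := Complex.isPrimitiveRoot_exp _ hN.ne'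
  have hcop : Nat.Coprime (p ^ v) (r * m) :=
    ((hp.coprime_iff_not_dvd.2 hpr).mul_right (hp.coprime_iff_not_dvd.2 hpm)).pow_left v
  obtain ⟨k', hka, hkb⟩ := Nat.chineseRemainder hcop k 1
  have hk'cop : k'.Coprime (r * m * p ^ v) := by
    refine Nat.Coprime.mul_right ?_ ?_
    · rw [Nat.Coprime, hkb.gcd_eq]; simp
    · rw [Nat.Coprime, hka.gcd_eq]; exact hk
  set L := IntermediateField.adjoin ℚ ({ζ} : Set ℂ) with hL
  have hζL : ζ ∈ L := IntermediateField.mem_adjoin_simple_self ℚ ζ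
  obtain ⟨φ, hφ⟩ := LinearBound.exists_cyclotomic_hom hN hζ hk'cop
  have hφpow : ∀ c : ℕ, φ ⟨ζ ^ c, pow_mem hζL c⟩ = (ζ ^ c) ^ k' := fun c => by
    rw [show (⟨ζ ^ c, pow_mem hζL c⟩ : L) = ⟨ζ, hζL⟩ ^ c from rfl, map_pow,
      show φ ⟨ζ, hζL⟩ = ζ ^ k' from hφ, ← pow_mul, ← pow_mul, mul_comm]
  have hfix : ∃ h : χ g ∈ L, φ ⟨χ g, h⟩ = χ g := by
    have halg : IsAlgebraic ℚ ω := ((hωr.isIntegral hr).tower_top (A := ℚ)).isAlgebraic
    have hx : χ g ∈ Algebra.adjoin ℚ ({ω} : Set ℂ) := by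
      rw [← IntermediateField.adjoin_simple_toSubalgebra_of_isAlgebraic halg]
      exact hval g
    revert hx
    generalize χ g = y
    intro hx
    induction hx using Algebra.adjoin_induction with
    | mem x hx =>
      obtain rfl : x = ω := hx
      obtain ⟨c, -, hc⟩ := hζ.eq_pow_of_pow_eq_one (ξ := ω)
        (by rw [mul_assoc, pow_mul, hωr.pow_eq_one, one_pow])
      refine ⟨hc ▸ pow_mem hζL c, ?_⟩
      rw [show (⟨ω, hc ▸ pow_mem hζL c⟩ : L) = ⟨ζ ^ c, pow_mem hζL c⟩ from Subtype.ext hc.symm,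
        hφpow, hc]
      conv_rhs => rw [← pow_one ω]
      rw [pow_eq_pow_mod k' hωr.pow_eq_one, pow_eq_pow_mod 1 hωr.pow_eq_one,
        show k' % r = 1 % r from hkb.of_mul_right m]
    | algebraMap q => exact ⟨L.algebraMap_mem q, φ.commutes q⟩
    | add x y _ _ hx hy =>
      obtain ⟨hx, hx'⟩ := hx
      obtain ⟨hy, hy'⟩ := hy
      refine ⟨add_mem hx hy, ?_⟩
      rw [show (⟨x + y, add_mem hx hy⟩ : L) = ⟨x, hx⟩ + ⟨y, hy⟩ from rfl, map_add, hx', hy']
    | mul x y _ _ hx hy =>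
      obtain ⟨hx, hx'⟩ := hx
      obtain ⟨hy, hy'⟩ := hy
      refine ⟨mul_mem hx hy, ?_⟩
      rw [show (⟨x * y, mul_mem hx hy⟩ : L) = ⟨x, hx⟩ * ⟨y, hy⟩ from rfl, map_mul, hx', hy']
  obtain ⟨hmem, hfix⟩ := hfix
  have hg : orderOf g ∣ r * m * p ^ v := ((orderOf_dvd_natCard g).trans hG).trans
    ⟨r, by ring⟩
  obtain ⟨d, c, hc⟩ := LinearBound.exists_pow_sum hχ hN hζ hg
  have he : (⟨χ g, hmem⟩ : L) = ∑ i, ⟨ζ ^ c i, pow_mem hζL (c i)⟩ := by
    apply Subtype.ext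
    have := hc 1
    simp only [pow_one] at this
    simpa using this
  rw [he, map_sum] at hfix
  simp only [hφpow] at hfix
  rw [← hc k'] at hfix
  rw [← hfix]
  refine congrArg χ (pow_eq_pow_iff_modEq.2 (Nat.ModEq.of_dvd ((orderOf_dvd_natCard g).trans hG) ?_))
  exact (Nat.modEq_and_modEq_iff_modEq_mul (hcop.coprime_mul_left_right)).1
    ⟨hka.symm, hk1.trans (hkb.of_mul_left r).symm⟩


/-- For odd `p` the determinantal order of a `p`-rational character is prime to `p`. -/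
theorem not_dvd_detOrder (hp : p.Prime) (hp2 : p ≠ 2) {χ : G → ℂ} (hχ : IsCharacter G χ) {r : ℕ}
    (hpr : ¬ p ∣ r) (hval : ∀ g : G, χ g ∈
      IntermediateField.adjoin ℚ ({Complex.exp (2 * Real.pi * Complex.I / r)} : Set ℂ)) :
    ¬ p ∣ detOrder χ := by
  intro hdvd
  have hl := CharExt.detChar_isLin χ
  rw [detOrder, hl.orderOf_eq] at hdvd
  obtain ⟨v, m, hG, hpm⟩ : ∃ v m : ℕ, Nat.card G ∣ p ^ v * m ∧ ¬ p ∣ m :=
    ⟨_, _, dvd_of_eq (Nat.ordProj_mul_ordCompl_eq_self (Nat.card G) p).symm,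
      Nat.not_dvd_ordCompl hp Nat.card_pos.ne'⟩
  have hcop : (p ^ v).Coprime m := (hp.coprime_iff_not_dvd.2 hpm).pow_left v
  have h2 : Nat.Coprime 2 (p ^ v) :=
    ((Nat.coprime_primes Nat.prime_two hp).2 (Ne.symm hp2)).pow_right v
  obtain ⟨k, hk2, hk1⟩ := Nat.chineseRemainder hcop 2 1
  have hkc : k.Coprime (p ^ v) := by rw [Nat.Coprime, hk2.gcd_eq]; exact h2
  obtain ⟨δ, hδ⟩ : ∃ δ : G →* ℂˣ, δ = hl.toHom := ⟨_, rfl⟩
  rw [← hδ] at hdvd
  have hδv : ∀ g, (δ g : ℂ) = detChar χ g := fun g => by rw [hδ]; exact hl.toHom_apply g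
  have hfix : ∀ g, δ g ^ k = δ g := fun g => by
    apply Units.ext
    rw [Units.val_pow_eq_pow_val, hδv]
    exact (LinearBound.detChar_twist hχ hχ k
      (fun x => (pow_eq_of_rational hp hχ hpr hval hG hpm hkc hk1 x).symm) g).symm
  have hpk : δ ^ k = δ := MonoidHom.ext fun g => (MonoidHom.pow_apply δ k g).trans (hfix g)
  have hcard : δ ^ Nat.card G = 1 := MonoidHom.ext fun g => by
    rw [MonoidHom.pow_apply, ← map_pow, pow_card_eq_one', map_one, MonoidHom.one_apply]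
  have hord : orderOf δ ∣ Nat.card G := orderOf_dvd_of_pow_eq_one hcard
  have hk0 : k ≠ 0 := by
    rintro rfl
    have hm1 : m = 1 := Nat.dvd_one.1 ((Nat.modEq_iff_dvd' (by norm_num)).1 hk1)
    rcases Nat.eq_zero_or_pos v with rfl | hv
    · subst hm1
      exact hp.ne_one (Nat.dvd_one.1 (by simpa using hdvd.trans (hord.trans hG)))
    · rw [Nat.coprime_zero_left] at hkc
      exact hp.ne_one (Nat.dvd_one.1 (hkc ▸ dvd_pow_self p hv.ne'))
  have hpk1 : δ ^ (k - 1) = 1 := by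
    refine MonoidHom.ext fun g => (MonoidHom.pow_apply δ (k - 1) g).trans ?_
    have h := hfix g
    rw [show k = (k - 1) + 1 by omega, pow_succ] at h
    exact mul_eq_right.1 h
  have h1 : 1 ≡ k [MOD p] := (Nat.modEq_iff_dvd' (by omega)).2
    (hdvd.trans (orderOf_dvd_of_pow_eq_one hpk1))
  have hpc : p ∣ p ^ v * m := hdvd.trans (hord.trans hG)
  have hv : v ≠ 0 := by
    intro h0
    rw [h0, pow_zero, one_mul] at hpc
    exact hpm hpc
  have h3 : 1 ≡ 2 [MOD p] := h1.trans (hk2.of_dvd (dvd_pow_self p hv))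
  exact hp.ne_one (Nat.dvd_one.1 ((Nat.modEq_iff_dvd' (by norm_num)).1 h3))

/-- The determinant of a twist by a linear character. -/
theorem detChar_mul {χ : G → ℂ} (hχ : IsCharacter G χ) {d : ℕ} (hd : χ 1 = d) (f : G →* ℂˣ)
    (g : G) : detChar (fun x => (f x : ℂ) * χ x) g = (f g : ℂ) ^ d * detChar χ g := by
  obtain ⟨n, ρ, rfl⟩ := hχ
  rw [CharExt.detChar_eq ρ rfl]
  let σ : Representation ℂ G (Fin n → ℂ) :=
    { toFun := fun x => (f x : ℂ) • ρ x
      map_one' := by simp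
      map_mul' := fun x y => by
        refine LinearMap.ext fun w => ?_
        simp [map_mul, smul_smul, mul_comm] }
  have hσ : σ.character = fun x => (f x : ℂ) * ρ.character x := funext fun x => by
    simp [Representation.character, σ]
  rw [CharExt.detChar_eq σ hσ, show σ g = (f g : ℂ) • ρ g from rfl, LinearMap.det_smul]
  congr 2
  rw [Representation.char_one] at hd
  exact_mod_cast hd

/-- A character fixed by all powers which are `1` modulo the `p'`-part `m` of the group order has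
values in the field of `m`-th roots of unity. -/
theorem mem_adjoin_of_fixed (hp : p.Prime) {χ : G → ℂ} (hχ : IsCharacter G χ) {v m : ℕ}
    (hG : Nat.card G = p ^ v * m) (hpm : ¬ p ∣ m)
    (hfix : ∀ k : ℕ, k.Coprime (Nat.card G) → k ≡ 1 [MOD m] → ∀ g : G, χ (g ^ k) = χ g) (g : G) :
    χ g ∈ IntermediateField.adjoin ℚ ({Complex.exp (2 * Real.pi * Complex.I / m)} : Set ℂ) := by
  classical
  have hm : m ≠ 0 := by rintro rfl; exact hpm (dvd_zero p)
  haveI : NeZero m := ⟨hm⟩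
  haveI : NeZero (p ^ v) := ⟨pow_ne_zero v hp.ne_zero⟩
  haveI : NeZero (Nat.card G) := ⟨Nat.card_pos.ne'⟩
  set K := IntermediateField.adjoin ℚ ({Complex.exp (2 * Real.pi * Complex.I / m)} : Set ℂ) with hK
  have hcop : (p ^ v).Coprime m := (hp.coprime_iff_not_dvd.2 hpm).pow_left v
  obtain ⟨e, he1, he0⟩ := Nat.chineseRemainder hcop 1 0
  obtain ⟨f, hf0, hf1⟩ := Nat.chineseRemainder hcop 0 1
  set ζ := Complex.exp (2 * Real.pi * Complex.I / (Nat.card G : ℕ))
  have hζ : IsPrimitiveRoot ζ (Nat.card G) := Complex.isPrimitiveRoot_exp _ Nat.card_pos.ne'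
  obtain ⟨d, c, hc⟩ := LinearBound.exists_pow_sum hχ Nat.card_pos hζ (orderOf_dvd_natCard g)
  have hroot : ∀ i, (ζ ^ c i) ^ Nat.card G = 1 := fun i => by
    rw [← pow_mul, mul_comm, pow_mul, hζ.pow_eq_one, one_pow]
  set α : Fin d → ℂ := fun i => (ζ ^ c i) ^ e with hαdef
  set β : Fin d → ℂ := fun i => (ζ ^ c i) ^ f with hβdef
  have hα : ∀ i, α i ^ p ^ v = 1 := fun i => by
    obtain ⟨t, ht⟩ := Nat.modEq_zero_iff_dvd.1 he0
    show ((ζ ^ c i) ^ e) ^ p ^ v = 1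
    rw [← pow_mul (ζ ^ c i), show e * p ^ v = Nat.card G * t by rw [ht, hG]; ring, pow_mul, hroot,
      one_pow]
  have hβ : ∀ i, β i ^ m = 1 := fun i => by
    obtain ⟨t, ht⟩ := Nat.modEq_zero_iff_dvd.1 hf0
    show ((ζ ^ c i) ^ f) ^ m = 1
    rw [← pow_mul (ζ ^ c i), show f * m = Nat.card G * t by rw [ht, hG]; ring, pow_mul, hroot,
      one_pow]
  have hεαβ : ∀ i, ζ ^ c i = α i * β i := fun i => by
    show ζ ^ c i = (ζ ^ c i) ^ e * (ζ ^ c i) ^ f
    rw [← pow_add]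
    conv_lhs => rw [← pow_one (ζ ^ c i)]
    rw [pow_eq_pow_mod 1 (hroot i), pow_eq_pow_mod (e + f) (hroot i)]
    congr 1
    rw [hG]
    refine (Nat.modEq_and_modEq_iff_modEq_mul hcop).1 ⟨?_, ?_⟩
    · simpa using (he1.add hf0).symm
    · simpa using (he0.add hf1).symm
  have hj : ∀ b : (ZMod (p ^ v))ˣ, χ g = ∑ i, β i * α i ^ (b : ZMod (p ^ v)).val := by
    intro b
    obtain ⟨j, hjc, hjv, hjm⟩ := OddChar.exists_coprime_exponent (n := Nat.card G)
      (a := p ^ v) (b := m) (dvd_of_eq hG.symm) hcop (ZMod.val_coe_unit_coprime b)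
    rw [← hfix j hjc hjm g, hc j]
    refine Finset.sum_congr rfl fun i _ => ?_
    rw [hεαβ i, mul_pow, mul_comm]
    congr 1
    · rw [pow_eq_pow_mod j (hβ i), show j % m = 1 % m from hjm, ← pow_eq_pow_mod 1 (hβ i), pow_one]
    · rw [pow_eq_pow_mod j (hα i), show j % p ^ v = _ % p ^ v from hjv, ← pow_eq_pow_mod _ (hα i)]
  have hint : ∀ i, ∃ z : ℤ, ∑ b : (ZMod (p ^ v))ˣ, α i ^ (b : ZMod (p ^ v)).val = z := fun i => by
    refine GalAvg.exists_int_of_const (n := p ^ v)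
      (x := ∑ b : (ZMod (p ^ v))ˣ, fun a : (ZMod (p ^ v))ˣ =>
        α i ^ ((a * b : (ZMod (p ^ v))ˣ) : ZMod (p ^ v)).val)
      (sum_mem fun b _ => GalAvg.shift_mem (GalAvg.root_mem (hα i)) b) fun a => ?_
    rw [Finset.sum_apply]
    exact Fintype.sum_equiv (Equiv.mulLeft a) _ _ fun b => rfl
  choose z hz using hint
  have key : (Fintype.card (ZMod (p ^ v))ˣ : ℂ) * χ g = ∑ i, β i * (z i : ℂ) := by
    calc (Fintype.card (ZMod (p ^ v))ˣ : ℂ) * χ g = ∑ _b : (ZMod (p ^ v))ˣ, χ g := by simp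
      _ = ∑ b : (ZMod (p ^ v))ˣ, ∑ i, β i * α i ^ (b : ZMod (p ^ v)).val :=
          Finset.sum_congr rfl fun b _ => hj b
      _ = _ := by rw [Finset.sum_comm]; simp [← Finset.mul_sum, hz]
  have hne : (Fintype.card (ZMod (p ^ v))ˣ : ℂ) ≠ 0 := Nat.cast_ne_zero.2 Fintype.card_ne_zero
  rw [show χ g = (Fintype.card (ZMod (p ^ v))ˣ : ℂ)⁻¹ * ∑ i, β i * (z i : ℂ) by
    rw [← key, inv_mul_cancel_left₀ hne]]
  refine K.mul_mem (K.inv_mem (natCast_mem K _)) (sum_mem fun i _ => K.mul_mem ?_ (intCast_mem K _))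
  obtain ⟨t, -, ht⟩ := (Complex.isPrimitiveRoot_exp m hm).eq_pow_of_pow_eq_one (hβ i)
  exact ht ▸ K.pow_mem (IntermediateField.subset_adjoin ℚ _ rfl) t

end Cfsg.Agent.PRatExt
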